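import Groth.Agent.Models.H67.NormRoot
import Mathlib.AlgebraicGeometry.IdealSheaf.Subscheme

/-!
# Functions on the divisor of `π` on a normal scheme (S3344, part 3)

`X` is an integral, normal, Noetherian scheme, `π ≠ 0` a global function, `I` the ideal sheaf generated by `π`.
`eq_zero_of_not_isUnit`: if `π` generates the maximal ideal of the local ring at some point `y₀` and the nonzero
functions on the reduced divisor of `π` are units, then a function on `V(π)` which is not a unit at some point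
is zero.
-/

set_option autoImplicit false
universe u

open CategoryTheory CategoryTheory.Limits AlgebraicGeometry Opposite TopologicalSpace

namespace Groth.Agent.Models.H67.FibreField

open Groth.Agent.Dix.NormalSec Groth.Agent.Fdesc.LocGen Groth.Agent.Models.H67.NormFam
open Groth.Agent.Models.H67.NormRoot Groth.Agent.Models.H67.ValAlg IsDiscreteValuationRing

section Gen

variable {X Z : Scheme.{u}}

/-- `j.app U` as a ring homomorphism. -/
noncomputable def ap (j : Z ⟶ X) (U : X.Opens) : Γ(X, U) →+* Γ(Z, j ⁻¹ᵁ U) := (j.app U).hom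

lemma ap_ores (j : Z ⟶ X) {U V : X.Opens} (h : V ≤ U) (a : Γ(X, U)) :
    ap j V (ores h a) = ores (fun _ hz => h hz : j ⁻¹ᵁ V ≤ j ⁻¹ᵁ U) (ap j U a) := by
  have h1 := j.naturality (homOfLE h).op
  exact congr(($h1).hom a)

lemma germ_ap (j : Z ⟶ X) {U : X.Opens} (z : Z) (hz : j z ∈ U) (a : Γ(X, U)) :
    germ (j ⁻¹ᵁ U) z hz (ap j U a) = (j.stalkMap z).hom (germ U (j z) hz a) := by
  have h1 := Scheme.Hom.germ_stalkMap j U z hz
  exact congr(($h1).hom a).symm

lemma isUnit_germ_ap_iff (j : Z ⟶ X) {U : X.Opens} (z : Z) (hz : j z ∈ U) (a : Γ(X, U)) :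
    IsUnit (germ (j ⁻¹ᵁ U) z hz (ap j U a)) ↔ IsUnit (germ U (j z) hz a) := by
  rw [germ_ap]
  exact isUnit_map_iff (j.stalkMap z).hom _

lemma preimage_top_ap (j : Z ⟶ X) {π : Γ(X, ⊤)} (hj : ap j ⊤ π = 0) (U : X.Opens) :
    ap j U (ores le_top π) = 0 := by
  rw [ap_ores, hj, map_zero]

end Gen

section Glue

variable {X : Scheme.{u}} [IsIntegral X] [IsNoetherian X] {π : Γ(X, ⊤)}

/-- The quotients `b = a^q/π^p` glue to a function on every reduced scheme over `V(π)`. -/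
theorem exists_glue (hN : ∀ x : X, IsIntegrallyClosed (X.presheaf.stalk x))
    (hπ : π ≠ 0) (F : Fam π) {p q : ℕ} (hpq : p < q) {b : ∀ U : X.affineOpens, Γ(X, U.1)}
    (hb : ∀ U, F.a U ^ q = (ores le_top π) ^ p * b U) {Z : Scheme.{u}} [IsReduced Z] (j : Z ⟶ X)
    (hj : ap j ⊤ π = 0) :
    ∃ β : Γ(Z, ⊤), ∀ U : X.affineOpens, ores le_top β = ap j U.1 (b U) := by
  have key : ∀ (U W : X.affineOpens) (h : W.1 ≤ U.1),
      ores (fun _ hz => h hz : j ⁻¹ᵁ W.1 ≤ j ⁻¹ᵁ U.1) (ap j U.1 (b U)) = ap j W.1 (b W) := by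
    intro U W h
    rw [← ap_ores, ← sub_eq_zero, ← map_sub]
    obtain ⟨N, c, hc⟩ := F.exists_pow_dvd hN hπ hpq hb U W h
    have h1 : ap j W.1 (ores h (b U) - b W) ^ N = 0 := by
      rw [← map_pow, hc, map_mul, preimage_top_ap j hj, zero_mul]
    exact eq_zero_of_pow_eq_zero h1
  refine ores_glue (V := (⊤ : Z.Opens)) (fun U : X.affineOpens => j ⁻¹ᵁ U.1) (fun _ => le_top) ?_
    (fun U => ap j U.1 (b U)) ?_
  · intro z _
    obtain ⟨U, hU, hxU, -⟩ := exists_isAffineOpen_mem_and_subset (X := X) (x := j z) (U := ⊤) trivial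
    exact Opens.mem_iSup.2 ⟨⟨U, hU⟩, hxU⟩
  · intro U V
    refine ores_ext (V := j ⁻¹ᵁ U.1 ⊓ j ⁻¹ᵁ V.1)
      (fun W : {W : X.affineOpens // W.1 ≤ U.1 ∧ W.1 ≤ V.1} => j ⁻¹ᵁ W.1.1)
      (fun W z hz => ⟨W.2.1 hz, W.2.2 hz⟩) ?_ ?_
    · intro z hz
      obtain ⟨W, hzW, hWU, hWV⟩ := exists_affine_inf (y := j z) hz.1 hz.2
      exact Opens.mem_iSup.2 ⟨⟨W, hWU, hWV⟩, hzW⟩
    · rintro ⟨W, hWU, hWV⟩
      rw [ores_ores, ores_ores]
      exact (key U W hWU).trans (key V W hWV).symm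

/-- Main result: a function on `V(π)` which is not a unit at some point vanishes. -/
theorem eq_zero_of_not_isUnit (hN : ∀ x : X, IsIntegrallyClosed (X.presheaf.stalk x))
    (hπ : π ≠ 0) (I : X.IdealSheafData)
    (hI : ∀ U : X.affineOpens, I.ideal U = Ideal.span {(ores le_top π : Γ(X, U.1))})
    {Z : Scheme.{u}} [IsReduced Z] (j : Z ⟶ X) (hj : ap j ⊤ π = 0)
    (hcov : ∀ y : X, ¬ IsUnit (pt π y) → y ∈ Set.range j)
    (hfield : ∀ β : Γ(Z, ⊤), β ≠ 0 → IsUnit β)
    (y₀ : X) (hy₀ : IsLocalRing.maximalIdeal (X.presheaf.stalk y₀) = Ideal.span {pt π y₀})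
    (a : Γ(I.subscheme, ⊤)) (x : I.subscheme) (hx : ¬ IsUnit (germ ⊤ x trivial a)) : a = 0 := by
  -- local lifts
  have hsurj : ∀ U : X.affineOpens, ∃ c : Γ(X, U.1), ap I.subschemeι U.1 c = ores le_top a :=
    fun U => I.subschemeι_app_surjective U _
  choose c hc using hsurj
  have hker : ∀ (U : X.affineOpens) (f : Γ(X, U.1)), ap I.subschemeι U.1 f = 0 ↔ ores le_top π ∣ f := by
    intro U f
    rw [← Ideal.mem_span_singleton, ← hI U, ← I.ker_subschemeι_app U]
    rfl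
  let F : Fam π := ⟨c, fun U V h => by
    rw [← hker, map_sub, ap_ores, hc, hc, ores_ores, sub_self]⟩
  by_cases hne : ∃ U : X.affineOpens, ¬ (ores le_top π ∣ F.a U)
  swap
  · -- all lifts are divisible by `π`
    push Not at hne
    refine ores_ext (V := (⊤ : I.subscheme.Opens)) (fun U : X.affineOpens => I.subschemeι ⁻¹ᵁ U.1)
      (fun _ => le_top) ?_ ?_
    · intro z _
      obtain ⟨U, hU, hxU, -⟩ :=
        exists_isAffineOpen_mem_and_subset (X := X) (x := I.subschemeι z) (U := ⊤) trivial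
      exact Opens.mem_iSup.2 ⟨⟨U, hU⟩, hxU⟩
    · intro U
      rw [map_zero, ← hc U]
      exact (hker U _).2 (hne U)
  -- the other case is impossible
  exfalso
  obtain ⟨p, q, b, y₁, hpq, hy₁, hb, hu⟩ := F.exists_root hN hπ hne
  obtain ⟨β, hβ⟩ := exists_glue hN hπ F hpq hb j hj
  -- `β` is a unit
  have hβ0 : β ≠ 0 := by
    rintro rfl
    obtain ⟨z, rfl⟩ := hcov y₁ hy₁.1
    obtain ⟨U, hU, hxU, -⟩ := exists_isAffineOpen_mem_and_subset (X := X) (x := j z) (U := ⊤) trivial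
    have h1 := (isUnit_germ_ap_iff j z hxU (b ⟨U, hU⟩)).2 (hu ⟨U, hU⟩ hxU)
    rw [← hβ ⟨U, hU⟩, map_zero, map_zero] at h1
    exact not_isUnit_zero h1
  have hβu := hfield β hβ0
  have hbu : ∀ (y : X) (U : X.affineOpens) (hU : y ∈ U.1), ¬ IsUnit (pt π y) →
      IsUnit (germ U.1 y hU (b U)) := by
    intro y U hU hy
    obtain ⟨z, rfl⟩ := hcov y hy
    rw [← isUnit_germ_ap_iff j z hU, ← hβ U]
    exact (hβu.map _).map _
  -- the multiplicity one point gives `p = 0`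
  have hp : p = 0 := by
    have hm0 : pt π y₀ ≠ 0 := pt_ne_zero hπ y₀
    have hnf : ¬ IsField (X.presheaf.stalk y₀) := by
      rw [IsLocalRing.isField_iff_maximalIdeal_eq, hy₀, Ideal.span_singleton_eq_bot]
      exact hm0
    have hdvr : IsDiscreteValuationRing (X.presheaf.stalk y₀) :=
      ((IsDiscreteValuationRing.TFAE (X.presheaf.stalk y₀) hnf).out 4 0).mp
        (show (IsLocalRing.maximalIdeal (X.presheaf.stalk y₀)).IsPrincipal from ⟨⟨pt π y₀, hy₀⟩⟩)
    have hirr : Irreducible (pt π y₀) := (irreducible_iff_uniformizer _).2 hy₀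
    obtain ⟨U, hU, hyU, -⟩ := exists_isAffineOpen_mem_and_subset (X := X) (x := y₀) (U := ⊤) trivial
    have h1 := congr(germ U y₀ hyU $(hb ⟨U, hU⟩))
    rw [map_pow, map_mul, map_pow, germ_ores_top] at h1
    exact eq_zero_of_unit (addVal_uniformizer hirr) hpq h1 (hbu y₀ ⟨U, hU⟩ hyU hirr.not_isUnit)
  subst hp
  -- the point `x`
  obtain ⟨U, hU, hxU, -⟩ :=
    exists_isAffineOpen_mem_and_subset (X := X) (x := I.subschemeι x) (U := ⊤) trivial
  have hnu : ¬ IsUnit (pt π (I.subschemeι x)) := by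
    rw [← germ_ores_top π (I.subschemeι x) hxU, ← isUnit_germ_ap_iff I.subschemeι x hxU,
      (hker ⟨U, hU⟩ _).2 dvd_rfl, map_zero]
    exact not_isUnit_zero
  have h1 := hbu (I.subschemeι x) ⟨U, hU⟩ hxU hnu
  have h2 := congr(germ U (I.subschemeι x) hxU $(hb ⟨U, hU⟩))
  rw [pow_zero, one_mul, map_pow] at h2
  rw [← h2] at h1
  have h3 : IsUnit (germ U (I.subschemeι x) hxU (F.a ⟨U, hU⟩)) :=
    (isUnit_pow_iff (by omega : q ≠ 0)).1 h1
  rw [← isUnit_germ_ap_iff I.subschemeι x hxU] at h3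
  change IsUnit (germ _ x hxU (ap I.subschemeι U (c ⟨U, hU⟩))) at h3
  rw [hc ⟨U, hU⟩, germ_ores] at h3
  exact hx h3

end Glue

end Groth.Agent.Models.H67.FibreField
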