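import Groth.Agent.Models.H67.Section
import Groth.Agent.CycB.LocQuot

/-!
# A component through a point where the closed fibre is locally integral has multiplicity one (S3344, part 2)
-/

set_option autoImplicit false
universe u

open CategoryTheory CategoryTheory.Limits AlgebraicGeometry TopologicalSpace

namespace Groth.Agent.Models.H67.MultOne

section Basic

variable {R : Type u} [CommRing R] {X : Over (Spec (CommRingCat.of R))}

lemma isUnit_germ_toGlobal_iff (y : X.left) (r : R) :
    IsUnit ((X.left.presheaf.germ ⊤ y trivial).hom (Coh.toGlobal X.hom r)) ↔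
      r ∉ (X.hom y).asIdeal := by
  have h1 : IsUnit ((X.left.presheaf.germ ⊤ y trivial).hom (Coh.toGlobal X.hom r)) ↔
      y ∈ X.left.basicOpen (X.hom.appTop.hom ((Scheme.ΓSpecIso (CommRingCat.of R)).inv.hom r)) :=
    (Scheme.mem_basicOpen_top X.left _ y).symm
  rw [h1]
  have h2 : X.left.basicOpen (X.hom.appTop.hom ((Scheme.ΓSpecIso (CommRingCat.of R)).inv.hom r)) =
      X.hom ⁻¹ᵁ (Spec (CommRingCat.of R)).basicOpen
        ((Scheme.ΓSpecIso (CommRingCat.of R)).inv.hom r) :=
    (Scheme.preimage_basicOpen_top X.hom _).symm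
  rw [h2]
  have h3 : (Spec (CommRingCat.of R)).basicOpen ((Scheme.ΓSpecIso (CommRingCat.of R)).inv.hom r) =
      PrimeSpectrum.basicOpen r := basicOpen_eq_of_affine (R := CommRingCat.of R) r
  rw [h3]
  rfl

end Basic

section DVR

variable {R : Type u} [CommRing R] [IsDomain R] [IsDiscreteValuationRing R]
  {X : Over (Spec (CommRingCat.of R))}

lemma mem_specialFibreSet_iff {ϖ : R} (hϖ : Irreducible ϖ) (y : X.left) :
    y ∈ Models.specialFibreSet R X ↔
      Models.stalkHom R X y ϖ ∈ IsLocalRing.maximalIdeal (X.left.presheaf.stalk y) := by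
  rw [IsLocalRing.mem_maximalIdeal, mem_nonunits_iff]
  have h1 : IsUnit (Models.stalkHom R X y ϖ) ↔ ϖ ∉ (X.hom y).asIdeal := isUnit_germ_toGlobal_iff y ϖ
  rw [h1, not_not]
  change X.hom y = IsLocalRing.closedPoint R ↔ _
  constructor
  · intro h
    rw [h]
    change ϖ ∈ IsLocalRing.maximalIdeal R
    rw [hϖ.maximalIdeal_eq]
    exact Ideal.mem_span_singleton_self _
  · intro h
    refine PrimeSpectrum.ext ?_
    have h2 : IsLocalRing.maximalIdeal R ≤ (X.hom y).asIdeal := by
      rw [hϖ.maximalIdeal_eq, Ideal.span_singleton_le_iff_mem]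
      exact h
    exact ((IsLocalRing.maximalIdeal.isMaximal R).eq_of_le (X.hom y).2.ne_top h2).symm

omit [IsDomain R] [IsDiscreteValuationRing R] in
lemma stalkSpecializes_comp_stalkHom {x y : X.left} (h : y ⤳ x) :
    (X.left.presheaf.stalkSpecializes h).hom.comp (Models.stalkHom R X x) =
      Models.stalkHom R X y := by
  have h1 := TopCat.Presheaf.germ_stalkSpecializes X.left.presheaf (U := ⊤) trivial h
  ext r
  exact congr(($h1).hom (Coh.toGlobal X.hom r))

lemma range_eq_closure (Γ : ArSurf.VertComp R X) :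
    Set.range (Γ.ι.base : Γ.curve.left → X.left) = closure {Models.genPtOf R X Γ} := by
  have h1 := Γ.ι.isClosedEmbedding.isClosedMap.closure_image_eq_of_continuous Γ.ι.continuous
    {genericPoint Γ.curve.left}
  rw [genericPoint_closure, Set.image_univ] at h1
  have h2 : (Γ.ι '' {genericPoint Γ.curve.left} : Set X.left) = {Models.genPtOf R X Γ} :=
    Set.image_singleton
  rw [h2] at h1
  exact h1.symm

lemma genPtOf_specializes (Γ : ArSurf.VertComp R X) {x : X.left}
    (hx : x ∈ Set.range (Γ.ι.base : Γ.curve.left → X.left)) : Models.genPtOf R X Γ ⤳ x := by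
  rw [range_eq_closure] at hx
  exact specializes_iff_mem_closure.2 hx

/-- If `O_{X,x} / 𝔪_R` is a domain then every component of the closed fibre through `x` has multiplicity one;
moreover the prime ideal of `O_{X,x}` of its generic point is generated by `𝔪_R`. -/
theorem primeOf_eq (Γ : ArSurf.VertComp R X)
    (hΓ : Set.range (Γ.ι.base : Γ.curve.left → X.left) ∈ Models.fibreComponents R X) {x : X.left}
    (hx : x ∈ Set.range (Γ.ι.base : Γ.curve.left → X.left))
    (hd : IsDomain (X.left.presheaf.stalk x ⧸
      Ideal.map (Models.stalkHom R X x) (IsLocalRing.maximalIdeal R))) :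
    RingHom.ker (Cyc.specMap x (Models.genPtOf R X Γ) (genPtOf_specializes Γ hx)) =
      Ideal.map (Models.stalkHom R X x) (IsLocalRing.maximalIdeal R) := by
  obtain ⟨ϖ, hϖ⟩ := IsDiscreteValuationRing.exists_irreducible R
  have hP : (Ideal.map (Models.stalkHom R X x) (IsLocalRing.maximalIdeal R)).IsPrime :=
    (Ideal.Quotient.isDomain_iff_prime _).1 hd
  let P : PrimeSpectrum (X.left.presheaf.stalk x) :=
    ⟨Ideal.map (Models.stalkHom R X x) (IsLocalRing.maximalIdeal R), hP⟩
  let h := genPtOf_specializes Γ hx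
  let Q : PrimeSpectrum (X.left.presheaf.stalk x) := CycB.LocQuot.primeOf h
  -- `Q` goes to `ξ`
  have hQ : X.left.fromSpecStalk x Q = Models.genPtOf R X Γ := by
    have h1 := Scheme.SpecMap_stalkSpecializes_fromSpecStalk h
    have h2 := Scheme.fromSpecStalk_closedPoint (X := X.left) (x := Models.genPtOf R X Γ)
    rw [← h1, Scheme.Hom.comp_apply] at h2
    exact h2
  let η : X.left := X.left.fromSpecStalk x P
  -- `P ≤ Q`
  have hξ : Models.genPtOf R X Γ ∈ Models.specialFibreSet R X := by
    apply hΓ.1.2
    rw [range_eq_closure]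
    exact subset_closure rfl
  have hPQ : P ≤ Q := by
    change Ideal.map (Models.stalkHom R X x) (IsLocalRing.maximalIdeal R) ≤ Q.asIdeal
    rw [Section.map_maximalIdeal_eq hϖ, Ideal.span_singleton_le_iff_mem]
    change (X.left.presheaf.stalkSpecializes h).hom (Models.stalkHom R X x ϖ) ∈
      IsLocalRing.maximalIdeal _
    have h3 : (X.left.presheaf.stalkSpecializes h).hom (Models.stalkHom R X x ϖ) =
      Models.stalkHom R X (Models.genPtOf R X Γ) ϖ := congr($(stalkSpecializes_comp_stalkHom h) ϖ)
    rw [h3]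
    exact (mem_specialFibreSet_iff hϖ _).1 hξ
  have hηξ : η ⤳ Models.genPtOf R X Γ := by
    rw [← hQ]
    exact ((PrimeSpectrum.le_iff_specializes P Q).1 hPQ).map (X.left.fromSpecStalk x).continuous
  -- `η` lies in the closed fibre
  have hη : η ∈ Models.specialFibreSet R X := by
    have h4 : η ⤳ x := by
      have : η ∈ Set.range (X.left.fromSpecStalk x) := ⟨P, rfl⟩
      rw [Scheme.range_fromSpecStalk] at this
      exact this
    have hP' : CycB.LocQuot.primeOf h4 = P := by
      apply (X.left.fromSpecStalk x).isEmbedding.injective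
      have h1 := Scheme.SpecMap_stalkSpecializes_fromSpecStalk h4
      have h2 := Scheme.fromSpecStalk_closedPoint (X := X.left) (x := η)
      rw [← h1, Scheme.Hom.comp_apply] at h2
      exact h2
    rw [mem_specialFibreSet_iff hϖ, ← stalkSpecializes_comp_stalkHom h4]
    change Models.stalkHom R X x ϖ ∈ (CycB.LocQuot.primeOf h4).asIdeal
    rw [hP']
    exact Ideal.mem_map_of_mem _ (by rw [hϖ.maximalIdeal_eq]; exact Ideal.mem_span_singleton_self _)
  -- maximality
  have hcl : closure ({η} : Set X.left) ⊆ Models.specialFibreSet R X :=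
    (Models.isClosed_specialFibreSet R X).closure_subset_iff.2 (by simpa using hη)
  have h5 : closure ({η} : Set X.left) ⊆ Set.range (Γ.ι.base : Γ.curve.left → X.left) := by
    refine hΓ.2 ⟨isIrreducible_singleton.closure, hcl⟩ ?_
    rw [range_eq_closure]
    exact (specializes_iff_closure_subset.1 hηξ)
  have h6 : Models.genPtOf R X Γ ⤳ η := by
    rw [specializes_iff_mem_closure, ← range_eq_closure]
    exact h5 (subset_closure rfl)
  have h7 : η = Models.genPtOf R X Γ := (hηξ.antisymm h6).eq
  have h8 : P = Q := by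
    apply (X.left.fromSpecStalk x).isEmbedding.injective
    rw [hQ]
    exact h7
  rw [← CycB.LocQuot.primeOf_asIdeal]
  exact congr(PrimeSpectrum.asIdeal $h8).symm

/-- The maximal ideal of the local ring at the generic point of a component through `x` is generated by `𝔪_R`. -/
theorem map_eq_maximalIdeal (Γ : ArSurf.VertComp R X)
    (hΓ : Set.range (Γ.ι.base : Γ.curve.left → X.left) ∈ Models.fibreComponents R X) {x : X.left}
    (hx : x ∈ Set.range (Γ.ι.base : Γ.curve.left → X.left))
    (hd : IsDomain (X.left.presheaf.stalk x ⧸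
      Ideal.map (Models.stalkHom R X x) (IsLocalRing.maximalIdeal R))) :
    Ideal.map (Models.stalkHom R X (Models.genPtOf R X Γ)) (IsLocalRing.maximalIdeal R) =
      IsLocalRing.maximalIdeal (X.left.presheaf.stalk (Models.genPtOf R X Γ)) := by
  have h1 := primeOf_eq Γ hΓ hx hd
  have h := genPtOf_specializes Γ hx
  let := (X.left.presheaf.stalkSpecializes h).hom.toAlgebra
  have h2 := CycB.LocQuot.isLocalization_stalkSpecializes h
  have h3 := IsLocalization.AtPrime.map_eq_maximalIdeal
    (RingHom.ker (Cyc.specMap x (Models.genPtOf R X Γ) h)) (X.left.presheaf.stalk (Models.genPtOf R X Γ))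
  rwa [h1, RingHom.algebraMap_toAlgebra, Ideal.map_map, stalkSpecializes_comp_stalkHom] at h3

/-- Multiplicity one. -/
theorem mult_eq_one (Γ : ArSurf.VertComp R X)
    (hΓ : Set.range (Γ.ι.base : Γ.curve.left → X.left) ∈ Models.fibreComponents R X) {x : X.left}
    (hx : x ∈ Set.range (Γ.ι.base : Γ.curve.left → X.left))
    (hd : IsDomain (X.left.presheaf.stalk x ⧸
      Ideal.map (Models.stalkHom R X x) (IsLocalRing.maximalIdeal R))) :
    Models.mult R X Γ = 1 := by
  unfold Models.mult
  rw [map_eq_maximalIdeal Γ hΓ hx hd]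
  have h4 : IsSimpleModule (X.left.presheaf.stalk (Models.genPtOf R X Γ))
      (X.left.presheaf.stalk (Models.genPtOf R X Γ) ⧸
        IsLocalRing.maximalIdeal (X.left.presheaf.stalk (Models.genPtOf R X Γ))) :=
    isSimpleModule_iff_isCoatom.2 (IsLocalRing.maximalIdeal.isMaximal _).out
  rw [Module.length_eq_one]
  rfl

end DVR

end Groth.Agent.Models.H67.MultOne
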