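import Groth.Agent.Models.H67.ValAlg
import Groth.Agent.Dix.NormalSec
import Groth.Agent.CycB.LocQuot
import Groth.Agent.Etalg.NormalDvr
import Mathlib.AlgebraicGeometry.Noetherian
import Mathlib.RingTheory.Ideal.MinimalPrime.Noetherian

/-!
# Functions modulo `π` on a normal scheme: the function `a^q / π^p` (S3344, part 3)

`X` is an integral, normal, Noetherian scheme and `π ≠ 0` a global function.

* `stalk_hartogs`, `dvd_of_D`: divisibility by a power of `π` can be checked at the codimension one points of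
  `V(π)` (the set `D π`).
* `Fam π`: families of functions on the affine opens that are compatible modulo `π` (that is, functions on
  the closed subscheme `V(π)`).
* `Fam.exists_root`: if such a family is not zero modulo `π`, there are `p < q` and functions `b U` with
  `a_U ^ q = π ^ p * b_U`, `b` a unit at some point of `D π`.
* `exists_pow_dvd`: the `b U` are compatible modulo the radical of `π`.
-/

set_option autoImplicit false
universe u

open CategoryTheory CategoryTheory.Limits AlgebraicGeometry Opposite TopologicalSpace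

namespace Groth.Agent.Models.H67.NormFam

open Groth.Agent.Dix.NormalSec Groth.Agent.Fdesc.LocGen

section Stalk

variable {X : Scheme.{u}} [IsIntegral X]

/-- Hartogs at a point: divisibility in a normal Noetherian local ring can be checked at the generizations
whose local ring is a discrete valuation ring. -/
theorem stalk_hartogs [IsLocallyNoetherian X] (hN : ∀ x : X, IsIntegrallyClosed (X.presheaf.stalk x))
    {x : X} {f g : X.presheaf.stalk x} (hg : g ≠ 0)
    (h : ∀ (y : X) (hyx : y ⤳ x), IsDiscreteValuationRing (X.presheaf.stalk y) →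
      ¬ IsUnit ((X.presheaf.stalkSpecializes hyx).hom g) →
      (X.presheaf.stalkSpecializes hyx).hom g ∣ (X.presheaf.stalkSpecializes hyx).hom f) : g ∣ f := by
  by_contra hdvd
  rw [← Ideal.mem_span_singleton] at hdvd
  have := hN x
  obtain ⟨P, hP, hgP, hdvr, hs⟩ :=
    Groth.Agent.Etalg.NormalDvr.exists_dvr_prime_of_notMem_span (X.presheaf.stalk x) hg hdvd
  let y : X := X.fromSpecStalk x ⟨P, hP⟩
  have hyx : y ⤳ x := by
    have : y ∈ Set.range (X.fromSpecStalk x) := ⟨⟨P, hP⟩, rfl⟩
    rw [Scheme.range_fromSpecStalk] at this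
    exact this
  have hpr : CycB.LocQuot.primeOf hyx = ⟨P, hP⟩ := by
    apply (X.fromSpecStalk x).isEmbedding.injective
    have h1 := Scheme.SpecMap_stalkSpecializes_fromSpecStalk hyx
    have h2 := Scheme.fromSpecStalk_closedPoint (X := X) (x := y)
    rw [← h1, Scheme.Hom.comp_apply] at h2
    exact h2
  have hpr' : RingHom.ker (Cyc.specMap x y hyx) = P := by
    rw [← CycB.LocQuot.primeOf_asIdeal, hpr]
  let := (X.presheaf.stalkSpecializes hyx).hom.toAlgebra
  have hloc : IsLocalization.AtPrime (X.presheaf.stalk y) P := by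
    have := CycB.LocQuot.isLocalization_stalkSpecializes hyx
    simpa only [hpr'] using this
  have hdvr' : IsDiscreteValuationRing (X.presheaf.stalk y) :=
    IsDiscreteValuationRing.RingEquivClass.isDiscreteValuationRing
      (IsLocalization.algEquiv P.primeCompl (Localization.AtPrime P) (X.presheaf.stalk y)).toRingEquiv
  have hnu : ¬ IsUnit ((X.presheaf.stalkSpecializes hyx).hom g) := by
    rw [← CycB.LocQuot.mem_ker_specMap_iff, hpr']
    exact hgP
  have h3 := h y hyx hdvr' hnu
  have h4 : algebraMap (X.presheaf.stalk x) (X.presheaf.stalk y) f ∈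
      (Ideal.span {g}).map (algebraMap (X.presheaf.stalk x) (X.presheaf.stalk y)) := by
    rw [Ideal.map_span, Set.image_singleton, Ideal.mem_span_singleton]
    exact h3
  rw [IsLocalization.algebraMap_mem_map_algebraMap_iff P.primeCompl] at h4
  obtain ⟨s, hsP, hsf⟩ := h4
  exact hsP (hs s hsf)

end Stalk

section Main

variable {X : Scheme.{u}} [IsIntegral X]

/-- The germ of a global function. -/
noncomputable abbrev pt (π : Γ(X, ⊤)) (y : X) : X.presheaf.stalk y := germ ⊤ y trivial π

/-- The codimension one points of `V(π)`. -/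
def D (π : Γ(X, ⊤)) : Set X :=
  {y | ¬ IsUnit (pt π y) ∧ IsDiscreteValuationRing (X.presheaf.stalk y)}

lemma pt_ne_zero {π : Γ(X, ⊤)} (hπ : π ≠ 0) (y : X) : pt π y ≠ 0 := by
  intro h
  apply hπ
  apply germ_injective ⊤ y trivial
  rw [map_zero]; exact h

omit [IsIntegral X] in
lemma germ_ores_top (π : Γ(X, ⊤)) {U : X.Opens} (y : X) (hy : y ∈ U) :
    germ U y hy (ores le_top π) = pt π y := germ_ores le_top y hy π

omit [IsIntegral X] in
lemma stalkSpecializes_germ {U : X.Opens} {x y : X} (h : y ⤳ x) (hx : x ∈ U) (f : Γ(X, U)) :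
    (X.presheaf.stalkSpecializes h).hom (germ U x hx f) = germ U y (h.mem_open U.2 hx) f := by
  have h1 := TopCat.Presheaf.germ_stalkSpecializes X.presheaf hx h
  exact congr(($h1).hom f)

/-- Divisibility by `π ^ n` can be checked at the codimension one points of `V(π)`. -/
theorem dvd_of_D [IsLocallyNoetherian X] (hN : ∀ x : X, IsIntegrallyClosed (X.presheaf.stalk x))
    {π : Γ(X, ⊤)} (hπ : π ≠ 0) {U : X.Opens} (f : Γ(X, U)) (n : ℕ)
    (h : ∀ (y : X) (hy : y ∈ U), y ∈ D π → (pt π y) ^ n ∣ germ U y hy f) :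
    (ores le_top π) ^ n ∣ f := by
  by_cases hne : Nonempty U
  · obtain ⟨⟨z, hz⟩⟩ := hne
    apply dvd_of_forall_germ
    · intro h0
      apply pow_ne_zero n (pt_ne_zero hπ z)
      rw [← germ_ores_top π z hz, ← map_pow, h0, map_zero]
    · intro x hx
      rw [map_pow, germ_ores_top]
      refine stalk_hartogs hN (pow_ne_zero n (pt_ne_zero hπ x)) ?_
      intro y hyx hdvr hnu
      rw [map_pow] at hnu ⊢
      rw [stalkSpecializes_germ hyx (U := ⊤) trivial π] at hnu ⊢
      rw [stalkSpecializes_germ hyx hx f]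
      refine h y (hyx.mem_open U.2 hx) ⟨fun hu => hnu (hu.pow n), hdvr⟩
  · have hU : U = ⊥ := by
      ext x
      exact ⟨fun hx => (hne ⟨⟨x, hx⟩⟩).elim, fun hx => hx.elim⟩
    have : Subsingleton Γ(X, U) := by subst hU; infer_instance
    exact ⟨0, Subsingleton.elim _ _⟩

/-- Points of `D π` in an affine open are minimal primes over `π`. -/
lemma mem_minimalPrimes {π : Γ(X, ⊤)} (hπ : π ≠ 0) (U : X.affineOpens) {y : X} (hy : y ∈ U.1)
    (hD : y ∈ D π) : (U.2.primeIdealOf ⟨y, hy⟩).asIdeal ∈
      (Ideal.span {(ores le_top π : Γ(X, U.1))}).minimalPrimes := by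
  have hne : Nonempty U.1 := ⟨⟨y, hy⟩⟩
  let : Algebra Γ(X, U.1) (X.presheaf.stalk y) := (X.presheaf.germ U.1 y hy).hom.toAlgebra
  have hloc : IsLocalization.AtPrime (X.presheaf.stalk y) (U.2.primeIdealOf ⟨y, hy⟩).asIdeal :=
    U.2.isLocalization_stalk ⟨y, hy⟩
  have hdvr := hD.2
  have hmem : ∀ a : Γ(X, U.1), a ∈ (U.2.primeIdealOf ⟨y, hy⟩).asIdeal ↔
      ¬ IsUnit (algebraMap Γ(X, U.1) (X.presheaf.stalk y) a) := by
    intro a
    have h := IsLocalization.AtPrime.isUnit_to_map_iff (X.presheaf.stalk y)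
      (U.2.primeIdealOf ⟨y, hy⟩).asIdeal a
    rw [← not_iff_not, not_not]
    exact h.symm
  refine ⟨⟨(U.2.primeIdealOf ⟨y, hy⟩).2, ?_⟩, ?_⟩
  · rw [Ideal.span_singleton_le_iff_mem, hmem]
    change ¬ IsUnit (germ U.1 y hy (ores le_top π))
    rw [germ_ores_top]
    exact hD.1
  · rintro Q ⟨hQ, hπQ⟩ hQle
    rw [Ideal.span_singleton_le_iff_mem] at hπQ
    -- the extension of `Q` to the stalk is a nonzero prime, hence maximal
    have hdisj : Disjoint ((U.2.primeIdealOf ⟨y, hy⟩).asIdeal.primeCompl : Set Γ(X, U.1)) (Q : Set _) := by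
      rw [Set.disjoint_left]
      intro a ha haQ
      exact ha (hQle haQ)
    have hprime : (Q.map (algebraMap Γ(X, U.1) (X.presheaf.stalk y))).IsPrime :=
      IsLocalization.isPrime_of_isPrime_disjoint _ (X.presheaf.stalk y) Q hQ hdisj
    have hne0 : Q.map (algebraMap Γ(X, U.1) (X.presheaf.stalk y)) ≠ ⊥ := by
      intro h0
      have h1 := Ideal.mem_map_of_mem (algebraMap Γ(X, U.1) (X.presheaf.stalk y)) hπQ
      rw [h0, Ideal.mem_bot] at h1
      exact pt_ne_zero hπ y (by rw [← germ_ores_top π y hy]; exact h1)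
    have hmax := hprime.isMaximal hne0
    have heq : Q.map (algebraMap Γ(X, U.1) (X.presheaf.stalk y)) =
        IsLocalRing.maximalIdeal (X.presheaf.stalk y) := IsLocalRing.eq_maximalIdeal hmax
    intro a ha
    have h2 : algebraMap Γ(X, U.1) (X.presheaf.stalk y) a ∈
        Q.map (algebraMap Γ(X, U.1) (X.presheaf.stalk y)) := by
      rw [heq]; exact (hmem a).1 ha
    have h3 := IsLocalization.under_map_of_isPrime_disjoint
      (U.2.primeIdealOf ⟨y, hy⟩).asIdeal.primeCompl (X.presheaf.stalk y) hQ hdisj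
    rw [← h3]
    exact h2

theorem finite_D [IsNoetherian X] {π : Γ(X, ⊤)} (hπ : π ≠ 0) : (D π).Finite := by
  have key : ∀ U : X.affineOpens, (D π ∩ (U.1 : Set X)).Finite := by
    intro U
    have hN : IsNoetherianRing Γ(X, U.1) := IsLocallyNoetherian.component_noetherian U
    have hfin := Ideal.finite_minimalPrimes_of_isNoetherianRing Γ(X, U.1)
      (Ideal.span {(ores le_top π : Γ(X, U.1))})
    have h1 : (Set.range (fun y : {y : U.1 // (y : X) ∈ D π} =>
        (U.2.primeIdealOf y.1).asIdeal)).Finite :=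
      hfin.subset (by
        rintro _ ⟨⟨⟨y, hy⟩, hyD⟩, rfl⟩
        exact mem_minimalPrimes hπ U hy hyD)
    have hinj : Function.Injective (fun y : {y : U.1 // (y : X) ∈ D π} =>
        (U.2.primeIdealOf y.1).asIdeal) := by
      intro y z hyz
      apply Subtype.ext
      apply Subtype.ext
      have h2 : U.2.primeIdealOf y.1 = U.2.primeIdealOf z.1 := PrimeSpectrum.ext hyz
      rw [← U.2.fromSpec_primeIdealOf y.1, ← U.2.fromSpec_primeIdealOf z.1, h2]
    have h1' := h1.to_subtype
    have h3 : Finite {y : U.1 // (y : X) ∈ D π} := Finite.of_injective_finite_range hinj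
    refine (Set.finite_range (fun y : {y : U.1 // (y : X) ∈ D π} => (y.1 : X))).subset ?_
    rintro y ⟨hyD, hyU⟩
    exact ⟨⟨⟨y, hyU⟩, hyD⟩, rfl⟩
  have h := isCompact_univ (X := X) |>.induction_on (p := fun t => (D π ∩ t).Finite)
    (by simp) (fun s t hst ht => ht.subset (Set.inter_subset_inter_right _ hst))
    (fun s t hs ht => by rw [Set.inter_union_distrib_left]; exact hs.union ht)
    (fun x _ => by
      obtain ⟨U, hU, hxU, -⟩ := exists_isAffineOpen_mem_and_subset (X := X) (x := x) (U := ⊤) trivial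
      exact ⟨U, mem_nhdsWithin_of_mem_nhds (U.2.mem_nhds hxU), key ⟨U, hU⟩⟩)
  simpa using h

end Main

end Groth.Agent.Models.H67.NormFam
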