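import Groth.Agent.Models.H67.NormFam

/-!
# The function `a^q / π^p` on the reduced divisor of `π` (S3344, part 3)
-/

set_option autoImplicit false
universe u

open CategoryTheory CategoryTheory.Limits AlgebraicGeometry Opposite TopologicalSpace

namespace Groth.Agent.Models.H67.NormRoot

open Groth.Agent.Dix.NormalSec Groth.Agent.Fdesc.LocGen Groth.Agent.Models.H67.NormFam
open Groth.Agent.Models.H67.ValAlg IsDiscreteValuationRing

variable {X : Scheme.{u}}

/-- A family of functions on all affine opens which is compatible modulo `π`. -/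
structure Fam (π : Γ(X, ⊤)) where
  /-- the functions -/
  a : ∀ U : X.affineOpens, Γ(X, U.1)
  compat : ∀ (U V : X.affineOpens) (h : V.1 ≤ U.1), ores le_top π ∣ ores h (a U) - a V

variable {π : Γ(X, ⊤)}

lemma exists_affine_inf {U V : X.Opens} {y : X} (hU : y ∈ U) (hV : y ∈ V) :
    ∃ W : X.affineOpens, y ∈ W.1 ∧ W.1 ≤ U ∧ W.1 ≤ V := by
  obtain ⟨W, hW, hyW, hle⟩ := exists_isAffineOpen_mem_and_subset (X := X) (x := y) (U := U ⊓ V) ⟨hU, hV⟩
  exact ⟨⟨W, hW⟩, hyW, fun z hz => (hle hz).1, fun z hz => (hle hz).2⟩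

lemma Fam.germ_sub (F : Fam π) {U V : X.affineOpens} {y : X} (hU : y ∈ U.1) (hV : y ∈ V.1) :
    pt π y ∣ germ U.1 y hU (F.a U) - germ V.1 y hV (F.a V) := by
  obtain ⟨W, hyW, hWU, hWV⟩ := exists_affine_inf hU hV
  have h1 := map_dvd (germ W.1 y hyW) (F.compat U W hWU)
  have h2 := map_dvd (germ W.1 y hyW) (F.compat V W hWV)
  rw [germ_ores, map_sub, germ_ores] at h1 h2
  have h3 := dvd_sub h1 h2
  simpa using h3

variable [IsIntegral X]

/-- The order of the family at a point of `D π`, cut off at the order of `π`. -/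
lemma Fam.exists_ord (F : Fam π) (hπ : π ≠ 0) {y : X} (hy : y ∈ D π) :
    ∃ m α : ℕ, 0 < m ∧ α ≤ m ∧ (∀ _ : IsDiscreteValuationRing (X.presheaf.stalk y),
      addVal (X.presheaf.stalk y) (pt π y) = m ∧
      (∀ (U : X.affineOpens) (hU : y ∈ U.1),
        (α : ℕ∞) ≤ addVal (X.presheaf.stalk y) (germ U.1 y hU (F.a U)) ∧
        (α < m → addVal (X.presheaf.stalk y) (germ U.1 y hU (F.a U)) = α) ∧
        (α = m → pt π y ∣ germ U.1 y hU (F.a U)))) := by
  have hdvr := hy.2
  obtain ⟨m, hm⟩ := ValAlg.exists_ord (pt_ne_zero hπ y)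
  have hm0 : 0 < m := by
    rcases Nat.eq_zero_or_pos m with h | h
    · exfalso
      apply hy.1
      rw [isUnit_iff_addVal, hm, h]
      rfl
    · exact h
  obtain ⟨U₀, hyU₀, -⟩ := exists_affine_inf (X := X) (U := ⊤) (V := ⊤) (y := y) trivial trivial
  by_cases hd : pt π y ∣ germ U₀.1 y hyU₀ (F.a U₀)
  · refine ⟨m, m, hm0, le_rfl, fun _ => ⟨hm, fun U hU => ?_⟩⟩
    have h1 : pt π y ∣ germ U.1 y hU (F.a U) := by
      have := dvd_add (F.germ_sub hU hyU₀) hd
      rwa [sub_add_cancel] at this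
    refine ⟨?_, fun h => absurd h (lt_irrefl _), fun _ => h1⟩
    rw [← hm, addVal_le_iff_dvd]
    exact h1
  · -- the order of `a` is `< m`
    have h0 : germ U₀.1 y hyU₀ (F.a U₀) ≠ 0 := by
      intro h0; rw [h0] at hd; exact hd (dvd_zero _)
    obtain ⟨α, hα⟩ := ValAlg.exists_ord h0
    have hlt : α < m := by
      rw [← addVal_le_iff_dvd, hm, hα, not_le] at hd
      exact_mod_cast hd
    refine ⟨m, α, hm0, hlt.le, fun _ => ⟨hm, fun U hU => ?_⟩⟩
    have h2 : addVal (X.presheaf.stalk y) (germ U.1 y hU (F.a U)) = α := by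
      obtain ⟨c, hc⟩ := F.germ_sub hU hyU₀
      have h3 : germ U.1 y hU (F.a U) = germ U₀.1 y hyU₀ (F.a U₀) + pt π y * c := by
        rw [← hc]; ring
      have h4 : addVal (X.presheaf.stalk y) (germ U₀.1 y hyU₀ (F.a U₀)) <
          addVal (X.presheaf.stalk y) (pt π y * c) := by
        rw [addVal_mul, hα, hm]
        calc (α : ℕ∞) < m := by exact_mod_cast hlt
          _ ≤ m + addVal (X.presheaf.stalk y) c := le_self_add
      rw [h3, ← hα]
      apply le_antisymm
      · by_contra hcon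
        rw [not_le] at hcon
        have h5 : addVal (X.presheaf.stalk y) (germ U₀.1 y hyU₀ (F.a U₀)) <
            addVal (X.presheaf.stalk y) (germ U₀.1 y hyU₀ (F.a U₀)) := by
          have h6 := (addVal (X.presheaf.stalk y)).map_add
            (germ U₀.1 y hyU₀ (F.a U₀) + pt π y * c) (-(pt π y * c))
          rw [add_neg_cancel_right, AddValuation.map_neg] at h6
          exact lt_of_lt_of_le (lt_min hcon h4) h6
        exact absurd h5 (lt_irrefl _)
      · have h6 := (addVal (X.presheaf.stalk y)).map_add (germ U₀.1 y hyU₀ (F.a U₀)) (pt π y * c)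
        rwa [min_eq_left h4.le] at h6
    exact ⟨h2.ge, fun _ => h2, fun h => absurd h hlt.ne⟩

/-- If the family is not zero modulo `π` then for suitable `p < q` all the functions `a_U ^ q` are divisible
by `π ^ p` and the quotient is a unit at some codimension one point of `V(π)`. -/
theorem Fam.exists_root [IsNoetherian X] (hN : ∀ x : X, IsIntegrallyClosed (X.presheaf.stalk x))
    (hπ : π ≠ 0) (F : Fam π) (hne : ∃ U : X.affineOpens, ¬ (ores le_top π ∣ F.a U)) :
    ∃ (p q : ℕ) (b : ∀ U : X.affineOpens, Γ(X, U.1)) (y₁ : X), p < q ∧ y₁ ∈ D π ∧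
      (∀ U, F.a U ^ q = (ores le_top π) ^ p * b U) ∧
      ∀ (U : X.affineOpens) (h : y₁ ∈ U.1), IsUnit (germ U.1 y₁ h (b U)) := by
  classical
  choose! m α hm0 hαm hord using fun (y : X) (hy : y ∈ D π) => F.exists_ord hπ hy
  have hfin : Finite (D π) := (finite_D hπ).to_subtype
  -- some point where `α < m`
  obtain ⟨y₂, hy₂, hlt₂⟩ : ∃ y ∈ D π, α y < m y := by
    by_contra hcon
    push Not at hcon
    obtain ⟨U, hU⟩ := hne
    apply hU
    have := dvd_of_D hN hπ (F.a U) 1 (fun y hyU hyD => by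
      have hdvr := hyD.2
      rw [pow_one]
      exact ((hord y hyD hdvr).2 U hyU).2.2 (le_antisymm (hαm y hyD) (hcon y hyD)))
    rwa [pow_one] at this
  have hnon : Nonempty (D π) := ⟨⟨y₂, hy₂⟩⟩
  obtain ⟨⟨y₁, hy₁⟩, hmin⟩ := Finite.exists_min (fun y : D π => (α y.1 : ℚ) / (m y.1 : ℚ))
  have hmin' : ∀ y ∈ D π, α y₁ * m y ≤ m y₁ * α y := by
    intro y hy
    have h1 := hmin ⟨y, hy⟩
    simp only at h1
    have h2 : (0 : ℚ) < m y₁ := by exact_mod_cast hm0 y₁ hy₁
    have h3 : (0 : ℚ) < m y := by exact_mod_cast hm0 y hy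
    rw [div_le_div_iff₀ h2 h3] at h1
    have h4 : α y₁ * m y ≤ α y * m y₁ := by exact_mod_cast h1
    rwa [mul_comm (m y₁)]
  have hlt : α y₁ < m y₁ := by
    have h1 := hmin' y₂ hy₂
    by_contra hcon
    push Not at hcon
    have h2 : m y₁ * m y₂ ≤ m y₁ * α y₂ := (Nat.mul_le_mul_right _ hcon).trans h1
    have h3 : m y₂ ≤ α y₂ := Nat.le_of_mul_le_mul_left h2 (hm0 y₁ hy₁)
    omega
  have hdiv : ∀ U : X.affineOpens, (ores le_top π : Γ(X, U.1)) ^ (α y₁) ∣ F.a U ^ (m y₁) := by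
    intro U
    refine dvd_of_D hN hπ _ _ fun y hyU hyD => ?_
    have hdvr := hyD.2
    rw [map_pow]
    exact ValAlg.pow_dvd_pow (hord y hyD hdvr).1 ((hord y hyD hdvr).2 U hyU).1 (hmin' y hyD)
  choose b hb using hdiv
  refine ⟨α y₁, m y₁, b, y₁, hlt, hy₁, hb, fun U hU => ?_⟩
  have hdvr := hy₁.2
  have h1 := congr(germ U.1 y₁ hU $(hb U))
  rw [map_pow, map_mul, map_pow, germ_ores_top] at h1
  exact ValAlg.isUnit_of_eq (hord y₁ hy₁ hdvr).1 (((hord y₁ hy₁ hdvr).2 U hU).2.1 hlt) h1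

/-- The quotients `b = a^q / π^p` are compatible modulo the radical of `π`. -/
theorem Fam.exists_pow_dvd [IsNoetherian X] (hN : ∀ x : X, IsIntegrallyClosed (X.presheaf.stalk x))
    (hπ : π ≠ 0) (F : Fam π) {p q : ℕ} (hpq : p < q) {b : ∀ U : X.affineOpens, Γ(X, U.1)}
    (hb : ∀ U, F.a U ^ q = (ores le_top π) ^ p * b U) (U V : X.affineOpens) (h : V.1 ≤ U.1) :
    ∃ N : ℕ, ores le_top π ∣ (ores h (b U) - b V) ^ N := by
  classical
  have hfin : Finite (D π) := (finite_D hπ).to_subtype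
  -- an exponent that works at all points of `D π`
  have hex : ∀ y : D π, ∃ N : ℕ, ∀ (f : X.presheaf.stalk y.1), ¬ IsUnit f → pt π y.1 ∣ f ^ N := by
    rintro ⟨y, hy⟩
    have hdvr := hy.2
    obtain ⟨m, hm⟩ := ValAlg.exists_ord (pt_ne_zero hπ y)
    refine ⟨m, fun f hf => ?_⟩
    rw [← addVal_le_iff_dvd, addVal_pow', hm]
    have h1 : (1 : ℕ∞) ≤ addVal (X.presheaf.stalk y) f := by
      rw [Order.one_le_iff_ne_zero]
      intro h0
      exact hf (isUnit_iff_addVal.2 h0)
    calc (m : ℕ∞) = m * 1 := (mul_one _).symm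
      _ ≤ m * addVal (X.presheaf.stalk y) f := mul_le_mul_right h1 _
  choose N hNN using hex
  have : Fintype (D π) := Fintype.ofFinite _
  refine ⟨∑ y, N y, ?_⟩
  have := dvd_of_D hN hπ ((ores h (b U) - b V) ^ (∑ y, N y)) 1 (fun y hyV hyD => by
    have hdvr := hyD.2
    rw [pow_one, map_pow]
    refine (hNN ⟨y, hyD⟩ (germ V.1 y hyV (ores h (b U) - b V)) ?_).trans
      (pow_dvd_pow _ (Finset.single_le_sum (fun _ _ => Nat.zero_le _) (Finset.mem_univ _)))
    rw [map_sub, germ_ores]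
    have hU := congr(germ U.1 y (h hyV) $(hb U))
    have hV := congr(germ V.1 y hyV $(hb V))
    rw [map_pow, map_mul, map_pow, germ_ores_top] at hU hV
    exact ValAlg.not_isUnit_sub (pt_ne_zero hπ y) hyD.1 hpq hU hV (F.germ_sub (h hyV) hyV))
  rwa [pow_one] at this

end Groth.Agent.Models.H67.NormRoot
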