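import Groth.Prelude.Def_ModelsG
import Groth.Agent.CalgA.RegBasic
import Mathlib.AlgebraicGeometry.ValuativeCriterion
import Mathlib.AlgebraicGeometry.Stalk
import Mathlib.AlgebraicGeometry.ResidueField

/-!
# Rational points of the generic fibre extend to sections (S3344, part 1)

For a proper scheme `p : X ⟶ Spec R` over a discrete valuation ring, a rational point of the generic fibre
extends to a section `σ` of `p`.  The point `x = σ (closed point)` is closed, has residue field `k`, and, if
`O_{X,x}` is regular, `O_{X,x} / 𝔪_R` is regular.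
-/

set_option autoImplicit false
universe u

open CategoryTheory CategoryTheory.Limits AlgebraicGeometry TopologicalSpace

namespace Groth.Agent.Models.H67.Section

variable {R : Type u} [CommRing R] [IsDomain R] [IsDiscreteValuationRing R]

/-- Valuative criterion: a rational point of the generic fibre extends to a section. -/
theorem exists_section {C X : Scheme.{u}} {f : C ⟶ Spec (CommRingCat.of (FractionRing R))}
    {p : X ⟶ Spec (CommRingCat.of R)} [IsProper p] {g : C ⟶ X}
    (w : g ≫ p = f ≫ Spec.map (CommRingCat.ofHom (algebraMap R (FractionRing R))))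
    (s : Spec (CommRingCat.of (FractionRing R)) ⟶ C) (hs : s ≫ f = 𝟙 _) :
    ∃ σ : Spec (CommRingCat.of R) ⟶ X, σ ≫ p = 𝟙 _ ∧
      Spec.map (CommRingCat.ofHom (algebraMap R (FractionRing R))) ≫ σ = s ≫ g := by
  have h1 : ValuativeCriterion p := by
    have : IsProper p := inferInstance
    rw [IsProper.eq_valuativeCriterion] at this
    exact this.1.1.1
  have hc : CommSq (s ≫ g) (Spec.map (CommRingCat.ofHom (algebraMap R (FractionRing R)))) p (𝟙 _) :=
    ⟨by rw [Category.assoc, w, reassoc_of% hs, Category.comp_id]⟩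
  let S : ValuativeCommSq p := { R := R, K := FractionRing R, i₁ := s ≫ g, i₂ := 𝟙 _, commSq := hc }
  have h2 : S.commSq.HasLift := h1.existence S
  obtain ⟨⟨l⟩⟩ := h2
  exact ⟨l.l, l.fac_right, l.fac_left⟩

section Sec

variable {X : Over (Spec (CommRingCat.of R))} (σ : Spec (CommRingCat.of R) ⟶ X.left)

/-- The ring map `O_{X,x} → R` of a section. -/
noncomputable def psi : X.left.presheaf.stalk (σ (IsLocalRing.closedPoint R)) →+* R :=
  (Scheme.stalkClosedPointTo σ).hom

instance : IsLocalHom (psi σ) := inferInstanceAs (IsLocalHom (Scheme.stalkClosedPointTo σ).hom)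

lemma psi_germ (U : X.left.Opens) (hU : σ (IsLocalRing.closedPoint R) ∈ U) (a : Γ(X.left, U)) :
    psi σ ((X.left.presheaf.germ U _ hU).hom a) =
      (((Spec (CommRingCat.of R)).presheaf.mapIso
        (eqToIso (Scheme.preimage_eq_top_of_closedPoint_mem σ hU).symm).op ≪≫
        Scheme.ΓSpecIso (CommRingCat.of R)).hom).hom ((σ.app U).hom a) := by
  have h := Scheme.germ_stalkClosedPointTo σ U hU
  exact congr(($h).hom a)

lemma psi_comp_stalkHom (hσ : σ ≫ X.hom = 𝟙 _) :
    (psi σ).comp (Models.stalkHom R X (σ (IsLocalRing.closedPoint R))) = RingHom.id R := by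
  ext r
  change psi σ ((X.left.presheaf.germ ⊤ _ trivial).hom (Coh.toGlobal X.hom r)) = r
  rw [psi_germ σ ⊤ trivial]
  have h2 : X.hom.appTop ≫ σ.appTop = 𝟙 _ := by
    rw [← Scheme.Hom.comp_appTop, hσ]
    simp
  have h3 : (σ.app ⊤).hom (Coh.toGlobal X.hom r) =
      (Scheme.ΓSpecIso (CommRingCat.of R)).inv.hom r := by
    exact congr(($h2).hom ((Scheme.ΓSpecIso (CommRingCat.of R)).inv.hom r))
  rw [h3]
  have h4 : (Scheme.ΓSpecIso (CommRingCat.of R)).inv ≫ ((Spec (CommRingCat.of R)).presheaf.mapIso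
        (eqToIso (Scheme.preimage_eq_top_of_closedPoint_mem σ
          (U := ⊤) trivial).symm).op ≪≫
        Scheme.ΓSpecIso (CommRingCat.of R)).hom = 𝟙 _ := by
    simp
  exact congr(($h4).hom r)

/-- A section of a separated morphism sends the closed point to a closed point. -/
lemma isClosed_point [IsSeparated X.hom] (hσ : σ ≫ X.hom = 𝟙 _) :
    IsClosed ({σ (IsLocalRing.closedPoint R)} : Set X.left) := by
  have h1 : IsClosedImmersion (σ ≫ X.hom) := by rw [hσ]; infer_instance
  have h2 : IsClosedImmersion σ := IsClosedImmersion.of_comp σ X.hom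
  have h3 := σ.isClosedEmbedding.isClosedMap _ (IsLocalRing.isClosed_singleton_closedPoint R)
  convert h3
  exact (Set.image_singleton (f := σ) (a := IsLocalRing.closedPoint R)).symm

lemma point_mem_specialFibreSet (hσ : σ ≫ X.hom = 𝟙 _) :
    σ (IsLocalRing.closedPoint R) ∈ Models.specialFibreSet R X := by
  change X.hom (σ (IsLocalRing.closedPoint R)) = IsLocalRing.closedPoint R
  rw [← Scheme.Hom.comp_apply, hσ]
  rfl

/-- `R → κ(x)` is surjective. -/
lemma residue_surjective (hσ : σ ≫ X.hom = 𝟙 _) :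
    Function.Surjective ((X.left.residue (σ (IsLocalRing.closedPoint R))).hom.comp
      (Models.stalkHom R X (σ (IsLocalRing.closedPoint R)))) := by
  intro y
  obtain ⟨a, rfl⟩ := IsLocalRing.residue_surjective (R := X.left.presheaf.stalk
    (σ (IsLocalRing.closedPoint R))) y
  refine ⟨psi σ a, ?_⟩
  have h1 := congr($(psi_comp_stalkHom σ hσ) (psi σ a))
  have h2 : Models.stalkHom R X (σ (IsLocalRing.closedPoint R)) (psi σ a) - a ∈
      IsLocalRing.maximalIdeal (X.left.presheaf.stalk (σ (IsLocalRing.closedPoint R))) := by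
    rw [IsLocalRing.mem_maximalIdeal, mem_nonunits_iff]
    intro hu
    have h3 := hu.map (psi σ)
    rw [map_sub] at h3
    change IsUnit (((psi σ).comp (Models.stalkHom R X _)) (psi σ a) - psi σ a) at h3
    rw [h1] at h3
    simp at h3
  exact Ideal.Quotient.eq.2 h2

lemma stalkHom_mem (hσ : σ ≫ X.hom = 𝟙 _) {ϖ : R} (hϖ : ϖ ∈ IsLocalRing.maximalIdeal R) :
    Models.stalkHom R X (σ (IsLocalRing.closedPoint R)) ϖ ∈
      IsLocalRing.maximalIdeal (X.left.presheaf.stalk (σ (IsLocalRing.closedPoint R))) := by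
  rw [IsLocalRing.mem_maximalIdeal, mem_nonunits_iff]
  intro hu
  have h3 := hu.map (psi σ)
  change IsUnit (((psi σ).comp (Models.stalkHom R X _)) ϖ) at h3
  rw [psi_comp_stalkHom σ hσ] at h3
  exact hϖ h3

lemma psi_maximalIdeal_le : (IsLocalRing.maximalIdeal (X.left.presheaf.stalk
    (σ (IsLocalRing.closedPoint R)))).map (psi σ) ≤ IsLocalRing.maximalIdeal R := by
  rw [Ideal.map_le_iff_le_comap]
  intro a ha
  rw [Ideal.mem_comap, IsLocalRing.mem_maximalIdeal, mem_nonunits_iff]
  intro hu
  exact ha (isUnit_of_map_unit (psi σ) _ hu)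

/-- A uniformizer is not in `𝔪_x ^ 2`. -/
lemma stalkHom_notMem_sq (hσ : σ ≫ X.hom = 𝟙 _) {ϖ : R} (hϖ : Irreducible ϖ) :
    Models.stalkHom R X (σ (IsLocalRing.closedPoint R)) ϖ ∉
      IsLocalRing.maximalIdeal (X.left.presheaf.stalk (σ (IsLocalRing.closedPoint R))) ^ 2 := by
  intro h
  have h1 : psi σ (Models.stalkHom R X (σ (IsLocalRing.closedPoint R)) ϖ) ∈
      IsLocalRing.maximalIdeal R ^ 2 := by
    refine Ideal.pow_right_mono (psi_maximalIdeal_le σ) 2 ?_
    rw [← Ideal.map_pow]
    exact Ideal.mem_map_of_mem _ h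
  have h2 : psi σ (Models.stalkHom R X (σ (IsLocalRing.closedPoint R)) ϖ) = ϖ :=
    congr($(psi_comp_stalkHom σ hσ) ϖ)
  rw [h2, hϖ.maximalIdeal_eq, Ideal.span_singleton_pow, Ideal.mem_span_singleton] at h1
  obtain ⟨c, hc⟩ := h1
  have h3 : ϖ * 1 = ϖ * (ϖ * c) := by rw [mul_one, ← mul_assoc, ← pow_two, ← hc]
  have h4 := mul_left_cancel₀ hϖ.ne_zero h3
  exact hϖ.not_isUnit (IsUnit.of_mul_eq_one _ h4.symm)

lemma map_maximalIdeal_eq {ϖ : R} (hϖ : Irreducible ϖ) (x : X.left) :
    Ideal.map (Models.stalkHom R X x) (IsLocalRing.maximalIdeal R) =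
      Ideal.span {Models.stalkHom R X x ϖ} := by
  rw [hϖ.maximalIdeal_eq, Ideal.map_span, Set.image_singleton]

/-- The local ring of the closed fibre at `x` is regular. -/
theorem isRegular_quotient (hσ : σ ≫ X.hom = 𝟙 _)
    [IsRegularLocalRing (X.left.presheaf.stalk (σ (IsLocalRing.closedPoint R)))] :
    IsRegularLocalRing (X.left.presheaf.stalk (σ (IsLocalRing.closedPoint R)) ⧸
      Ideal.map (Models.stalkHom R X (σ (IsLocalRing.closedPoint R))) (IsLocalRing.maximalIdeal R)) := by
  obtain ⟨ϖ, hϖ⟩ := IsDiscreteValuationRing.exists_irreducible R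
  rw [map_maximalIdeal_eq hϖ]
  have hm : ϖ ∈ IsLocalRing.maximalIdeal R := by
    rw [hϖ.maximalIdeal_eq]; exact Ideal.mem_span_singleton_self _
  exact (CalgA.RegBasic.quotient_of_notMem_sq _ (stalkHom_mem σ hσ hm) (stalkHom_notMem_sq σ hσ hϖ)).1

end Sec

end Groth.Agent.Models.H67.Section
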