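import Mathlib.RingTheory.DiscreteValuationRing.Basic
import Mathlib.RingTheory.Valuation.ValuationRing
import Mathlib.Algebra.Ring.GeomSum
import Mathlib.RingTheory.DiscreteValuationRing.TFAE

/-!
# Divisibility lemmas in discrete valuation rings used for `H^0` of the closed fibre (S3344, part 3)

Throughout `a ^ q = π ^ p * b` with `p < q`: "`b = a^q / π^p`".
-/

set_option autoImplicit false

namespace Groth.Agent.Models.H67.ValAlg

section Dom

variable {O : Type*} [CommRing O] [IsDomain O]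

lemma le_of_pow_dvd_pow {π : O} (h0 : π ≠ 0) (hu : ¬ IsUnit π) {m n : ℕ} (h : π ^ m ∣ π ^ n) : m ≤ n := by
  by_contra hlt
  push Not at hlt
  obtain ⟨k, rfl⟩ := Nat.exists_eq_add_of_lt hlt
  obtain ⟨c, hc⟩ := h
  have h1 : π ^ n * 1 = π ^ n * (π ^ (k + 1) * c) := by
    rw [mul_one, ← mul_assoc, ← pow_add]
    exact hc
  have h2 := mul_left_cancel₀ (pow_ne_zero n h0) h1
  apply hu
  rw [pow_succ, mul_assoc, mul_comm, mul_assoc] at h2
  exact IsUnit.of_mul_eq_one _ h2.symm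

/-- Auxiliary step for `not_isUnit_sub`: the case where `a ∣ a'`. -/
lemma aux_dvd {π a a' b b' c : O} (h0 : π ≠ 0) (hu : ¬ IsUnit π) {p q : ℕ} (hpq : p < q)
    (hb : a ^ q = π ^ p * b) (hb' : a' ^ q = π ^ p * b') (hc : a - a' = π * c) (hd : a ∣ a') :
    ¬ IsUnit (b - b') := by
  intro hf
  obtain ⟨t, rfl⟩ := hd
  -- `a ^ q - a' ^ q` is divisible by `(a - a') a ^ (q-1)`
  obtain ⟨T, hT⟩ : ∃ T, a ^ q - (a * t) ^ q = π * c * (a ^ (q - 1) * T) := by
    obtain ⟨q, rfl⟩ := Nat.exists_eq_succ_of_ne_zero (by omega : q ≠ 0)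
    refine ⟨∑ i ∈ Finset.range (q + 1), t ^ (q - i), ?_⟩
    rw [← hc, ← Commute.geom_sum₂_mul (Commute.all a (a * t)) (q + 1)]
    rw [mul_comm]
    congr 1
    rw [Finset.mul_sum, Nat.add_sub_cancel]
    refine Finset.sum_congr rfl fun i hi => ?_
    have hi' : i ≤ q := Nat.lt_succ_iff.1 (Finset.mem_range.1 hi)
    have h1 : q + 1 - 1 - i = q - i := by omega
    rw [mul_pow, ← mul_assoc, ← pow_add, Nat.add_sub_cancel' hi']
  have h1 : π ^ p * (b - b') = π * a ^ (q - 1) * (c * T) := by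
    rw [mul_sub, ← hb, ← hb', hT]; ring
  have h2 : π * a ^ (q - 1) ∣ π ^ p := by
    rw [← hf.dvd_mul_right, h1]
    exact Dvd.intro _ rfl
  have h3 : π ^ (p * (q - 1)) ∣ a ^ (q * (q - 1)) := by
    rw [pow_mul, pow_mul a, hb, mul_pow]
    exact Dvd.intro _ rfl
  have h4 : π ^ (q + p * (q - 1)) ∣ π ^ (p * q) := by
    rw [pow_add, pow_mul π p q]
    refine dvd_trans ?_ (pow_dvd_pow_of_dvd h2 q)
    rw [mul_pow, ← pow_mul a, mul_comm (q - 1) q]
    exact mul_dvd_mul_left _ h3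
  have h5 := le_of_pow_dvd_pow h0 hu h4
  obtain ⟨q, rfl⟩ := Nat.exists_eq_succ_of_ne_zero (by omega : q ≠ 0)
  rw [Nat.succ_sub_one, Nat.mul_succ] at h5
  omega

/-- `a^q / π^p` modulo the maximal ideal only depends on `a` modulo `π`. -/
theorem not_isUnit_sub [ValuationRing O] {π a a' b b' : O} (h0 : π ≠ 0) (hu : ¬ IsUnit π) {p q : ℕ}
    (hpq : p < q) (hb : a ^ q = π ^ p * b) (hb' : a' ^ q = π ^ p * b') (hc : π ∣ a - a') :
    ¬ IsUnit (b - b') := by
  rcases ValuationRing.dvd_total a a' with hd | hd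
  · obtain ⟨c, hc⟩ := hc
    exact aux_dvd h0 hu hpq hb hb' hc hd
  · obtain ⟨c, hc⟩ := hc
    have hc' : a' - a = π * (-c) := by rw [mul_neg, ← hc, neg_sub]
    have h := aux_dvd h0 hu hpq hb' hb hc' hd
    rwa [← neg_sub, IsUnit.neg_iff] at h

end Dom

section DVR

variable {O : Type*} [CommRing O] [IsDomain O] [IsDiscreteValuationRing O]

open IsDiscreteValuationRing

/-- The (finite) order of a nonzero element. -/
lemma exists_ord {a : O} (ha : a ≠ 0) : ∃ n : ℕ, addVal O a = n := by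
  have h : addVal O a ≠ ⊤ := by
    rw [Ne, addVal_eq_top_iff]; exact ha
  exact ⟨_, (ENat.natCast_toNat h).symm⟩

lemma isUnit_iff_addVal {a : O} : IsUnit a ↔ addVal O a = 0 := by
  constructor
  · rintro ⟨u, rfl⟩
    obtain ⟨ϖ, hϖ⟩ := exists_irreducible O
    simp
  · intro h
    have h1 : addVal O a ≤ addVal O 1 := by rw [h]; exact zero_le
    rw [addVal_le_iff_dvd] at h1
    exact isUnit_of_dvd_one h1

lemma addVal_pow' (a : O) (n : ℕ) : addVal O (a ^ n) = n * addVal O a := by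
  rw [addVal_pow, nsmul_eq_mul]

/-- If `p * v(π) ≤ q * min (v a) (v π)` then `π^p ∣ a^q`. -/
lemma pow_dvd_pow {π a : O} {p q m α : ℕ} (hm : addVal O π = m) (hα : (α : ℕ∞) ≤ addVal O a)
    (h : p * m ≤ q * α) : π ^ p ∣ a ^ q := by
  rw [← addVal_le_iff_dvd, addVal_pow', addVal_pow', hm]
  calc (p : ℕ∞) * m = ((p * m : ℕ) : ℕ∞) := by push_cast; rfl
    _ ≤ ((q * α : ℕ) : ℕ∞) := by exact_mod_cast h
    _ = (q : ℕ∞) * α := by push_cast; rfl
    _ ≤ q * addVal O a := mul_le_mul_right hα _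

/-- If `v(a) = p` and `v(π) = q` then `a^q/π^p` is a unit. -/
lemma isUnit_of_eq {π a b : O} {p q : ℕ} (hm : addVal O π = q) (ha : addVal O a = p)
    (hb : a ^ q = π ^ p * b) : IsUnit b := by
  rw [isUnit_iff_addVal]
  have h := congr(addVal O $hb)
  rw [addVal_mul, addVal_pow', addVal_pow', hm, ha, mul_comm (q : ℕ∞)] at h
  have h1 : ((p : ℕ∞) * q) ≠ ⊤ := by
    have : ((p : ℕ∞) * q) = ((p * q : ℕ) : ℕ∞) := by push_cast; rfl
    rw [this]; exact ENat.natCast_ne_top _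
  have h2 : (p : ℕ∞) * q + 0 = (p : ℕ∞) * q + addVal O b := by rw [add_zero]; exact h
  exact (ENat.add_right_injective_of_ne_top h1 h2).symm

/-- If `v(π) = 1`, `b` is a unit and `p < q`, then `a^q = π^p b` forces `p = 0`. -/
lemma eq_zero_of_unit {π a b : O} {p q : ℕ} (hm : addVal O π = 1) (hpq : p < q)
    (hb : a ^ q = π ^ p * b) (hu : IsUnit b) : p = 0 := by
  have h := congr(addVal O $hb)
  rw [addVal_mul, addVal_pow', addVal_pow', hm, isUnit_iff_addVal.1 hu, mul_one, add_zero] at h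
  have ha : a ≠ 0 := by
    rintro rfl
    rw [addVal_zero, ENat.mul_top (by exact_mod_cast (by omega : q ≠ 0))] at h
    exact (ENat.natCast_ne_top p) h.symm
  obtain ⟨n, hn⟩ := exists_ord ha
  rw [hn] at h
  have h2 : q * n = p := by exact_mod_cast h
  rcases Nat.eq_zero_or_pos n with h3 | h3
  · rw [h3] at h2; omega
  · have : q ≤ q * n := Nat.le_mul_of_pos_right q h3
    omega

end DVR

end Groth.Agent.Models.H67.ValAlg
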