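import Groth.Agent.Models.H67.Section
import Groth.Agent.CurvesC.QuotZero
import Mathlib.AlgebraicGeometry.Morphisms.Proper

/-!
# A vertical component through a point with residue field `k` has `H^0 = k` (S3344, part 2)
-/

set_option autoImplicit false
universe u

open CategoryTheory CategoryTheory.Limits AlgebraicGeometry TopologicalSpace

namespace Groth.Agent.Models.H67.WdegOne

variable {R : Type u} [CommRing R] [IsDomain R] [IsDiscreteValuationRing R]
  {X : Over (Spec (CommRingCat.of R))}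

lemma isProper_curve [IsProper X.hom] (Γ : ArSurf.VertComp R X) :
    IsProper (Γ.curve.left ↘ Spec (CommRingCat.of (IsLocalRing.ResidueField R))) := by
  have h1 : IsProper (Γ.curve.hom ≫ Spec.map (CommRingCat.ofHom (IsLocalRing.residue R))) := by
    rw [← Γ.w]
    infer_instance
  have h2 : IsSeparated (Spec.map (CommRingCat.ofHom (IsLocalRing.residue R))) := inferInstance
  exact IsProper.of_comp Γ.curve.hom (Spec.map (CommRingCat.ofHom (IsLocalRing.residue R)))

lemma appTop_toGlobal (Γ : ArSurf.VertComp R X) (r : R) :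
    Γ.ι.appTop.hom (CurvesC.QuotZero.glob X.hom r) =
      CurvesC.QuotZero.glob Γ.curve.hom (IsLocalRing.residue R r) := by
  have h1 : (Scheme.ΓSpecIso (CommRingCat.of R)).inv ≫ (Γ.ι ≫ X.hom).appTop =
      (Scheme.ΓSpecIso (CommRingCat.of R)).inv ≫
        (Γ.curve.hom ≫ Spec.map (CommRingCat.ofHom (IsLocalRing.residue R))).appTop := by
    rw [Γ.w]
  rw [Scheme.Hom.comp_appTop, Scheme.Hom.comp_appTop, ← Scheme.ΓSpecIso_inv_naturality_assoc] at h1
  exact congr(($h1).hom r)

lemma stalkMap_stalkHom (Γ : ArSurf.VertComp R X) (y : Γ.curve.left) (r : R) :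
    (Γ.ι.stalkMap y).hom (Models.stalkHom R X (Γ.ι y) r) =
      (Γ.curve.left.presheaf.germ ⊤ y trivial).hom
        (CurvesC.QuotZero.glob Γ.curve.hom (IsLocalRing.residue R r)) := by
  have h1 := Scheme.Hom.germ_stalkMap Γ.ι ⊤ y trivial
  have h2 := congr(($h1).hom (CurvesC.QuotZero.glob X.hom r))
  refine h2.trans ?_
  have h3 := appTop_toGlobal Γ r
  exact congr((Γ.curve.left.presheaf.germ ⊤ y trivial).hom $h3)

/-- If `R → κ(x)` is surjective for some point `x` of `Γ`, then `H^0(Γ, O) = k`. -/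
theorem wdeg_eq_one [IsProper X.hom] (Γ : ArSurf.VertComp R X) {x : X.left}
    (hx : x ∈ Set.range (Γ.ι.base : Γ.curve.left → X.left))
    (hs : Function.Surjective ((X.left.residue x).hom.comp (Models.stalkHom R X x))) :
    Models.wdeg R X Γ = 1 := by
  obtain ⟨y, rfl⟩ := hx
  have := isProper_curve Γ
  have hfield : IsField Γ(Γ.curve.left, ⊤) :=
    isField_of_universallyClosed (IsLocalRing.ResidueField R) (Γ.curve.left ↘ Spec (CommRingCat.of (IsLocalRing.ResidueField R)))
  -- surjectivity of the structure map on global sections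
  have hsurj : ∀ s : Γ(Γ.curve.left, ⊤), ∃ r : R,
      CurvesC.QuotZero.glob Γ.curve.hom (IsLocalRing.residue R r) = s := by
    intro s
    obtain ⟨b, hb⟩ := (Γ.ι.stalkMap_surjective y)
      ((Γ.curve.left.presheaf.germ ⊤ y trivial).hom s)
    obtain ⟨r, hr⟩ := hs ((X.left.residue (Γ.ι y)).hom b)
    refine ⟨r, ?_⟩
    by_contra hne
    have h1 : IsUnit (CurvesC.QuotZero.glob Γ.curve.hom (IsLocalRing.residue R r) - s) := by
      obtain ⟨c, hc⟩ := hfield.mul_inv_cancel (sub_ne_zero.2 hne)
      exact IsUnit.of_mul_eq_one _ hc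
    have h2 := h1.map (Γ.curve.left.presheaf.germ ⊤ y trivial).hom
    rw [map_sub] at h2
    have h3 := stalkMap_stalkHom Γ y r
    have h4 : (Γ.curve.left.presheaf.germ ⊤ y trivial).hom
        (CurvesC.QuotZero.glob Γ.curve.hom (IsLocalRing.residue R r)) -
        (Γ.curve.left.presheaf.germ ⊤ y trivial).hom s =
        (Γ.ι.stalkMap y).hom (Models.stalkHom R X (Γ.ι y) r - b) := by
      rw [map_sub, h3]
      exact congr(_ - $hb.symm)
    erw [h4] at h2
    have h5 : IsUnit (Models.stalkHom R X (Γ.ι y) r - b) :=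
      isUnit_of_map_unit (Γ.ι.stalkMap y).hom _ h2
    have h6 : (X.left.residue (Γ.ι y)).hom (Models.stalkHom R X (Γ.ι y) r) =
      (X.left.residue (Γ.ι y)).hom b := hr
    have h7 : Models.stalkHom R X (Γ.ι y) r - b ∈ IsLocalRing.maximalIdeal _ :=
      Ideal.Quotient.eq.1 h6
    exact h7 h5
  unfold Models.wdeg
  have hnt : Nontrivial Γ(Γ.curve.left, ⊤) := hfield.nontrivial
  rw [finrank_eq_one_iff']
  let e := CurvesB.HZero.equivO Γ.curve.left
  refine ⟨e.symm 1, ?_, ?_⟩
  · intro h
    have : (1 : Γ(Γ.curve.left, ⊤)) = 0 := by rw [← e.apply_symm_apply 1, h, map_zero]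
    exact one_ne_zero this
  · intro w
    obtain ⟨r, hr⟩ := hsurj (e w)
    refine ⟨IsLocalRing.residue R r, ?_⟩
    apply e.injective
    rw [CurvesB.HZero.equivO_smul, e.apply_symm_apply, mul_one, ← hr]
    rfl

end Groth.Agent.Models.H67.WdegOne
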